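import Mathlib
import Cfsg.Agent.Lib.Helper26.MCI.Defs

/-!
# MCI (S2132), package [AUT]

The graph of the 35 splittings has at most `8! = 40320` automorphisms: a chain of point
stabilisers along an ordering of the 35 vertices; at each step the orbit of the next vertex `b`
lies in the class of the vertices having the same relation (equal / adjacent / non-adjacent) as
`b` to all the vertices already fixed.  The product of the 35 class sizes is `40320`
(kernel-checked).
-/

set_option autoImplicit false

namespace Cfsg.Agent.Lib.Helper45.MCI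

open Cfsg.Agent.Lib.Helper26.MCI

/-- One step of a stabiliser chain: if the images of `b` under `H` lie in `S` and `H'` contains the
stabiliser of `b` in `H`, then `|H| ≤ |S| |H'|`. -/
theorem aut_step {X : Type} [Fintype X] [DecidableEq X] (H H' : Subgroup (Equiv.Perm X)) (b : X)
    (S : Finset X) (hS : ∀ π ∈ H, π b ∈ S) (hH' : ∀ π ∈ H, π b = b → π ∈ H') :
    Nat.card H ≤ S.card * Nat.card H' := by
  classical
  have hex : ∀ s : X, ∃ σ : Equiv.Perm X, (∃ π ∈ H, π b = s) → (σ ∈ H ∧ σ b = s) := by
    intro s
    by_cases h : ∃ π ∈ H, π b = s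
    · obtain ⟨π, hπ, hs⟩ := h
      exact ⟨π, fun _ => ⟨hπ, hs⟩⟩
    · exact ⟨1, fun h' => absurd h' h⟩
  choose rep hrep using hex
  have hrep' : ∀ π : H, rep ((π : Equiv.Perm X) b) ∈ H ∧
      rep ((π : Equiv.Perm X) b) b = (π : Equiv.Perm X) b :=
    fun π => hrep _ ⟨π, π.2, rfl⟩
  have hmem : ∀ π : H, (rep ((π : Equiv.Perm X) b))⁻¹ * (π : Equiv.Perm X) ∈ H' := by
    intro π
    apply hH' _ (H.mul_mem (H.inv_mem (hrep' π).1) π.2)
    rw [Equiv.Perm.mul_apply]
    calc (rep ((π : Equiv.Perm X) b))⁻¹ ((π : Equiv.Perm X) b)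
        = (rep ((π : Equiv.Perm X) b))⁻¹ (rep ((π : Equiv.Perm X) b) b) := by rw [(hrep' π).2]
      _ = b := (rep ((π : Equiv.Perm X) b)).symm_apply_apply b
  have hinj : Function.Injective (fun π : H =>
      ((⟨(π : Equiv.Perm X) b, hS π π.2⟩ : S), (⟨_, hmem π⟩ : H'))) := by
    intro π1 π2 h
    have h1 : (π1 : Equiv.Perm X) b = (π2 : Equiv.Perm X) b :=
      congrArg (fun p : S × H' => (p.1 : X)) h
    have h2 : (rep ((π1 : Equiv.Perm X) b))⁻¹ * (π1 : Equiv.Perm X) =
        (rep ((π2 : Equiv.Perm X) b))⁻¹ * (π2 : Equiv.Perm X) :=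
      congrArg (fun p : S × H' => (p.2 : Equiv.Perm X)) h
    rw [h1] at h2
    exact Subtype.ext (mul_left_cancel h2)
  calc Nat.card H ≤ Nat.card (S × H') := Nat.card_le_card_of_injective _ hinj
    _ = S.card * Nat.card H' := by
      rw [Nat.card_prod, Nat.card_eq_fintype_card, Fintype.card_coe]

/-- The class of `b` relative to the already fixed vertices `pre`. -/
def autCls (pre : List (Fin 35)) (b : Fin 35) : Finset (Fin 35) :=
  Finset.univ.filter (fun v => ∀ p ∈ pre, (v = p ↔ b = p) ∧ splitAdj v p = splitAdj b p)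

/-- The product of the class sizes along `rest`. -/
def autBnd : List (Fin 35) → List (Fin 35) → ℕ
  | _, [] => 1
  | pre, b :: rest => (autCls pre b).card * autBnd (b :: pre) rest

theorem aut_chain : ∀ (rest pre : List (Fin 35)) (H : Subgroup (Equiv.Perm (Fin 35))),
    (∀ π ∈ H, ∀ i j : Fin 35, splitAdj (π i) (π j) = splitAdj i j) →
    (∀ π ∈ H, ∀ p ∈ pre, π p = p) → (∀ x : Fin 35, x ∈ pre ∨ x ∈ rest) →
    Nat.card H ≤ autBnd pre rest := by
  intro rest
  induction rest with
  | nil =>
    intro pre H hadj hfix hcov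
    have hbot : H = ⊥ := by
      rw [eq_bot_iff]
      intro π hπ
      rw [Subgroup.mem_bot]
      apply Equiv.ext
      intro x
      rcases hcov x with h | h
      · exact hfix π hπ x h
      · exact absurd h (List.not_mem_nil)
    rw [hbot]
    simp [autBnd]
  | cons b rest ih =>
    intro pre H hadj hfix hcov
    obtain ⟨H', hH'⟩ : ∃ H' : Subgroup (Equiv.Perm (Fin 35)),
        ∀ π, π ∈ H' ↔ (π ∈ H ∧ π b = b) :=
      ⟨H ⊓ MulAction.stabilizer (Equiv.Perm (Fin 35)) b, fun π => by
        rw [Subgroup.mem_inf, MulAction.mem_stabilizer_iff]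
        rfl⟩
    have h1 : Nat.card H ≤ (autCls pre b).card * Nat.card H' := by
      apply aut_step H H' b (autCls pre b)
      · intro π hπ
        rw [autCls, Finset.mem_filter]
        refine ⟨Finset.mem_univ _, ?_⟩
        intro p hp
        have hp' := hfix π hπ p hp
        refine ⟨⟨?_, ?_⟩, ?_⟩
        · intro h
          exact π.injective (h.trans hp'.symm)
        · intro h
          rw [h]
          exact hp'
        · have h3 := hadj π hπ b p
          rw [hp'] at h3
          exact h3
      · intro π hπ hb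
        exact (hH' π).2 ⟨hπ, hb⟩
    have h2 : Nat.card H' ≤ autBnd (b :: pre) rest := by
      apply ih (b :: pre) H'
      · intro π hπ
        exact hadj π ((hH' π).1 hπ).1
      · intro π hπ p hp
        rcases List.mem_cons.1 hp with h | h
        · rw [h]
          exact ((hH' π).1 hπ).2
        · exact hfix π ((hH' π).1 hπ).1 p h
      · intro x
        rcases hcov x with h | h
        · left
          exact List.mem_cons_of_mem _ h
        · rcases List.mem_cons.1 h with h | h
          · left
            rw [h]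
            exact List.mem_cons_self
          · right
            exact h
    calc Nat.card H ≤ (autCls pre b).card * Nat.card H' := h1
      _ ≤ (autCls pre b).card * autBnd (b :: pre) rest := Nat.mul_le_mul_left _ h2
      _ = autBnd pre (b :: rest) := rfl

/-- An ordering of the 35 vertices along which every class is an orbit of the stabiliser. -/
def autOrder : List (Fin 35) :=
  [24, 27, 3, 10, 23, 29, 14, 32, 34, 11, 19, 15, 26, 7, 25, 5, 16, 6, 4, 18, 33, 20, 30, 22, 2,
    12, 1, 8, 31, 28, 13, 21, 17, 0, 9]

set_option maxRecDepth 1000000 in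
theorem aut_bnd_eq : autBnd [] autOrder = 40320 := by decide +kernel

theorem aut_cover : ∀ x : Fin 35, x ∈ autOrder := by decide

theorem pkgAut : PkgAut := by
  intro Q hQ
  have h := aut_chain autOrder [] Q hQ (fun π _ p hp => absurd hp (List.not_mem_nil))
    (fun x => Or.inr (aut_cover x))
  rw [aut_bnd_eq] at h
  exact h

end Cfsg.Agent.Lib.Helper45.MCI
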