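import Mathlib
import Cfsg.Agent.Lib.Helper26.MCI.Defs

/-!
# MCI (S2132), package [CORE]

The centraliser `C` of `t` acts on the 35 splittings with kernel `{1, t}` and image `Q` preserving
the adjacency; `Q` contains `ρ(A₈)` (order 20160) and has order at most 40320, and order 40320 is
excluded by `2^8 ∤ |M|`.  So `Q = ρ(A₈)` and `C` is a non-split double cover of `A₈`.
-/

set_option autoImplicit false

namespace Cfsg.Agent.Lib.Helper45.MCI

open Cfsg.Agent.Lib.Helper26.MCI

theorem mci_card_a8 : Nat.card (alternatingGroup (Fin 8)) = 20160 := by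
  rw [Nat.card_eq_fintype_card]
  have h := two_mul_card_alternatingGroup (α := Fin 8)
  rw [Fintype.card_perm, Fintype.card_fin] at h
  have h8 : Nat.factorial 8 = 40320 := by decide
  omega

theorem pkgCore (hAut : PkgAut) (hRho : PkgRho) (hGen : PkgA8Gen) (hCen : PkgA8Cen)
    (hNsdc : PkgNsdc) : PkgCore := by
  intro M _ _ t ht2 h28 φ hφker hφadj hc1 hc2 hsq
  obtain ⟨ρ, hρinj, hρ1, hρ2⟩ := hRho
  obtain ⟨c1, hc1⟩ := hc1
  obtain ⟨c2, hc2⟩ := hc2
  have hρc1 : ρ g1 = φ c1 := by
    apply Equiv.ext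
    intro i
    apply Fin.ext
    rw [hρ1, hc1]
  have hρc2 : ρ g2 = φ c2 := by
    apply Equiv.ext
    intro i
    apply Fin.ext
    rw [hρ2, hc2]
  -- the image of `φ`
  have hQle : Nat.card φ.range ≤ 40320 := by
    apply hAut
    rintro π ⟨c, rfl⟩ i j
    exact hφadj c i j
  -- the image of `A₈`
  obtain ⟨QA, hQAdef⟩ : ∃ QA : Subgroup (Equiv.Perm (Fin 35)),
      QA = (alternatingGroup (Fin 8)).map ρ := ⟨_, rfl⟩
  have hQAcard : Nat.card QA = 20160 := by
    rw [hQAdef, Subgroup.card_map_of_injective hρinj]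
    exact mci_card_a8
  have hQAle : QA ≤ φ.range := by
    rw [hQAdef, ← hGen, MonoidHom.map_closure, Subgroup.closure_le]
    rintro x ⟨g, hg, rfl⟩
    rcases hg with hg | hg
    · rw [hg]
      exact ⟨c1, hρc1.symm⟩
    · rw [Set.mem_singleton_iff] at hg
      rw [hg]
      exact ⟨c2, hρc2.symm⟩
  -- the kernel of `φ` has order 2
  have htmem : t ∈ Subgroup.centralizer ({t} : Set M) := by
    rw [Subgroup.mem_centralizer_iff]
    intro h hh
    rw [Set.mem_singleton_iff] at hh
    rw [hh]
  have ht1 : t ≠ 1 := by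
    intro h
    rw [h, orderOf_one] at ht2
    omega
  obtain ⟨t', ht'⟩ : ∃ t' : ↥(Subgroup.centralizer ({t} : Set M)), (t' : M) = t :=
    ⟨⟨t, htmem⟩, rfl⟩
  have ht'1 : t' ≠ 1 := by
    intro h
    apply ht1
    rw [← ht', h]
    rfl
  have ht'ker : t' ∈ φ.ker := by
    rw [MonoidHom.mem_ker, hφker]
    right
    exact ht'
  have hker2 : Nat.card φ.ker = 2 := by
    rw [Nat.card_eq_two_iff' (1 : φ.ker)]
    refine ⟨⟨t', ht'ker⟩, ?_, ?_⟩
    · intro h
      exact ht'1 (congrArg Subtype.val h)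
    · intro y hy
      have h1 := (hφker y.1).1 (MonoidHom.mem_ker.1 y.2)
      rcases h1 with h1 | h1
      · exfalso
        apply hy
        apply Subtype.ext
        apply Subtype.ext
        exact h1
      · apply Subtype.ext
        apply Subtype.ext
        rw [ht']
        exact h1
  have hcardC : Nat.card ↥(Subgroup.centralizer ({t} : Set M)) =
      Nat.card φ.ker * Nat.card φ.range := by
    rw [← Nat.card_congr (QuotientGroup.quotientKerEquivRange φ).toEquiv, mul_comm]
    exact Subgroup.card_eq_card_quotient_mul_card_subgroup φ.ker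
  rw [hker2] at hcardC
  have hdvdM : Nat.card ↥(Subgroup.centralizer ({t} : Set M)) ∣ Nat.card M :=
    Subgroup.card_subgroup_dvd_card _
  have hQcard : Nat.card φ.range = 20160 := by
    have hdvd : Nat.card QA ∣ Nat.card φ.range := Subgroup.card_dvd_of_le hQAle
    rw [hQAcard] at hdvd
    obtain ⟨k, hk⟩ := hdvd
    have hpos : 0 < Nat.card φ.range := Nat.card_pos
    have hk12 : k = 1 ∨ k = 2 := by omega
    rcases hk12 with hk1 | hk2
    · rw [hk, hk1]
    · exfalso
      apply h28
      rw [hk, hk2] at hcardC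
      rw [hcardC] at hdvdM
      exact Dvd.dvd.trans ⟨315, by norm_num⟩ hdvdM
  have hQA : QA = φ.range := by
    apply Subgroup.eq_of_le_of_card_ge hQAle
    rw [hQAcard, hQcard]
  -- the surjection onto `A₈`
  have hex : ∀ c : ↥(Subgroup.centralizer ({t} : Set M)),
      ∃ a : alternatingGroup (Fin 8), ρ (a : Equiv.Perm (Fin 8)) = φ c := by
    intro c
    have h1 : φ c ∈ QA := by
      rw [hQA]
      exact ⟨c, rfl⟩
    rw [hQAdef] at h1
    obtain ⟨a, ha, hρa⟩ := Subgroup.mem_map.1 h1
    exact ⟨⟨a, ha⟩, hρa⟩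
  choose ψf hψf using hex
  have hψmul : ∀ c d : ↥(Subgroup.centralizer ({t} : Set M)), ψf (c * d) = ψf c * ψf d := by
    intro c d
    apply Subtype.ext
    apply hρinj
    rw [hψf, map_mul, Subgroup.coe_mul, map_mul, hψf, hψf]
  obtain ⟨ψ, hψ⟩ : ∃ ψ : ↥(Subgroup.centralizer ({t} : Set M)) →* alternatingGroup (Fin 8),
      ∀ c, ψ c = ψf c := ⟨MonoidHom.mk' ψf hψmul, fun c => rfl⟩
  have hψρ : ∀ c, ρ ((ψ c : alternatingGroup (Fin 8)) : Equiv.Perm (Fin 8)) = φ c := by
    intro c
    rw [hψ, hψf]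
  have hψsurj : Function.Surjective ψ := by
    intro a
    have h1 : ρ (a : Equiv.Perm (Fin 8)) ∈ φ.range := by
      rw [← hQA, hQAdef]
      exact Subgroup.mem_map.2 ⟨a, a.2, rfl⟩
    obtain ⟨c, hc⟩ := h1
    refine ⟨c, ?_⟩
    apply Subtype.ext
    apply hρinj
    rw [hψρ, hc]
  have hψker : ∀ c : ↥(Subgroup.centralizer ({t} : Set M)), ψ c = 1 ↔ (c = 1 ∨ c = t') := by
    intro c
    have h1 : ψ c = 1 ↔ φ c = 1 := by
      constructor
      · intro h
        rw [← hψρ, h]
        exact map_one ρ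
      · intro h
        apply Subtype.ext
        apply hρinj
        rw [hψρ, h]
        exact (map_one ρ).symm
    rw [h1, hφker]
    constructor
    · rintro (h | h)
      · left
        exact Subtype.ext h
      · right
        apply Subtype.ext
        rw [ht']
        exact h
    · rintro (h | h)
      · left
        rw [h]
        rfl
      · right
        rw [h]
        exact ht'
  obtain ⟨c, hc⟩ := hsq
  have hcmem : c ∈ Subgroup.centralizer ({t} : Set M) := by
    rw [Subgroup.mem_centralizer_iff]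
    intro h hh
    rw [Set.mem_singleton_iff] at hh
    rw [hh, ← hc, pow_two, mul_assoc]
  refine hNsdc t' ψ hψsurj ht'1 hψker hCen ⟨⟨c, hcmem⟩, ?_⟩
  apply Subtype.ext
  rw [ht']
  exact hc

end Cfsg.Agent.Lib.Helper45.MCI
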